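import Mathlib
import Cfsg.Agent.Lib.PGroup.RankTwoThree.ClassKit

/-!
# Overgroups of index three of subgroups of maximal class, in groups of rank two
-/

namespace Cfsg.Agent.Lib.PGroup.RankTwoThree

open Subgroup Cfsg.Agent.Lib.PGroup.Regular Cfsg.Agent.Lib.PGroup.HallPetrescu
open Cfsg.Agent.Lib.PGroup.HuppertA
open Cfsg.Agent.Lib.PGroup.Critical Cfsg.Agent.Lib.PGroup.NormalRank Cfsg.Agent.Lib.PGroup.RankThree
open scoped commutatorElement

universe u

set_option linter.unusedSectionVars false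
set_option linter.unusedVariables false
set_option linter.style.haveILetI false

section le

variable {G : Type*} [Group G] {q : ℕ}

theorem powerLaw_of_rel {Y : Subgroup G}
    (h : ∀ a ∈ Y, ∀ b ∈ Y, ∃ c ∈ pw q ⁅closure ({a, b} : Set G), closure ({a, b} : Set G)⁆,
      (a * b) ^ q = a ^ q * b ^ q * c) : PowerLaw q Y := by
  rintro ⟨a, ha⟩ ⟨b, hb⟩
  obtain ⟨c, hc, e⟩ := h a ha b hb
  have hle : closure ({a, b} : Set G) ≤ Y := closure_pair_le ha hb
  have hcY : c ∈ Y := by
    have h1 : pw q ⁅closure ({a, b} : Set G), closure ({a, b} : Set G)⁆ ≤ Y := by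
      rw [pw, closure_le]
      rintro _ ⟨x, hx, rfl⟩
      exact pow_mem (hle (commutator_self_le _ hx)) q
    exact h1 hc
  refine ⟨⟨c, hcY⟩, ?_, Subtype.ext (by simpa using e)⟩
  have h2 : (pw q ⁅closure ({(⟨a, ha⟩ : Y), ⟨b, hb⟩} : Set Y),
      closure ({(⟨a, ha⟩ : Y), ⟨b, hb⟩} : Set Y)⁆).map Y.subtype =
      pw q ⁅closure ({a, b} : Set G), closure ({a, b} : Set G)⁆ := by
    rw [map_pw_eq, Subgroup.map_commutator, map_closure_pair]
    rfl
  rw [← h2] at hc
  obtain ⟨c', hc', e'⟩ := hc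
  have : c' = ⟨c, hcY⟩ := Subtype.ext e'
  exact this ▸ hc'

theorem powerLaw_of_le {X Y : Subgroup G} (hL : PowerLaw q X) (h : Y ≤ X) : PowerLaw q Y :=
  powerLaw_of_rel fun _ ha _ hb => rel_powerLaw hL (h ha) (h hb)

end le

section centralizer

variable {L : Type u} [Group L] [Finite L]

/-- An element of order dividing `3` centralizing a normal `E₉` lies in it, in groups of rank two. -/
theorem cube_root_mem (hr : Cfsg.PRankLE 3 2 L) {V : Subgroup L} [hVn : V.Normal]
    (hVe : Cfsg.IsElementaryAbelian 3 V) (hVc : Nat.card V = 3 ^ 2) {x : L}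
    (hx : x ∈ centralizer (V : Set L)) (hx3 : x ^ 3 = 1) : x ∈ V := by
  by_contra hxV
  obtain ⟨hcomm, hexp⟩ := Cfsg.Agent.Lib.PGroup.Basic.isElementaryAbelian_iff.mp hVe
  have hB : IsMulCommutative (V ⊔ zpowers x : Subgroup L) := isMulCommutative_sup_zpowers hVe.1 hx
  have hcube : ∀ b ∈ (V ⊔ zpowers x : Subgroup L), b ^ 3 = 1 := by
    intro b hb
    have hb' : b ∈ ((V ⊔ zpowers x : Subgroup L) : Set L) := hb
    rw [Subgroup.normal_mul] at hb'
    obtain ⟨v, hv, y, hy, rfl⟩ := Set.mem_mul.mp hb'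
    obtain ⟨k, rfl⟩ := hy
    have hc : Commute v (x ^ k) := by
      have h1 : Commute x v := mem_centralizer_iff.mp hx v hv |>.symm
      exact (h1.zpow_left k).symm
    simp only
    rw [hc.mul_pow, hexp v hv, one_mul, ← zpow_natCast, ← zpow_mul, mul_comm, zpow_mul, zpow_natCast, hx3,
      one_zpow]
  have h1 := hr _ hB hcube
  rw [card_sup_zpowers V hxV (by rw [hx3]; exact one_mem _), hVc] at h1
  norm_num at h1

theorem le_centralizer_self {V : Subgroup L} (hVe : Cfsg.IsElementaryAbelian 3 V) :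
    V ≤ centralizer (V : Set L) := by
  obtain ⟨hcomm, hexp⟩ := Cfsg.Agent.Lib.PGroup.Basic.isElementaryAbelian_iff.mp hVe
  intro v hv
  rw [mem_centralizer_iff]
  intro u hu
  exact hcomm u hu v hv

/-- The centralizer of a normal `E₉` satisfies the power law, in groups of rank two. -/
theorem powerLaw_centralizer (hL : IsPGroup 3 L) (hr : Cfsg.PRankLE 3 2 L) {V : Subgroup L} [hVn : V.Normal]
    (hVe : Cfsg.IsElementaryAbelian 3 V) (hVc : Nat.card V = 3 ^ 2) :
    PowerLaw 3 (centralizer (V : Set L)) := by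
  obtain ⟨hcomm, hexp⟩ := Cfsg.Agent.Lib.PGroup.Basic.isElementaryAbelian_iff.mp hVe
  set X := centralizer (V : Set L) with hX
  have hm : Cfsg.IsMetacyclic X := by
    refine metacyclic_of_central_omega _ X (hL.to_subgroup X) (V.subgroupOf X) ?_ ?_ ?_ rfl
    · intro v hv
      rw [mem_center_iff]
      intro g
      apply Subtype.ext
      exact (mem_centralizer_iff.mp g.2 v (mem_subgroupOf.mp hv)).symm
    · intro x
      rw [mem_subgroupOf]
      constructor
      · intro h
        exact cube_root_mem hr hVe hVc x.2 (by simpa using congrArg Subtype.val h)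
      · intro h
        exact Subtype.ext (by simpa using hexp _ h)
    · have h1 : Nat.card (V.subgroupOf X) ≤ Nat.card V :=
        Nat.card_le_card_of_injective (fun x : V.subgroupOf X => (⟨(x : X), x.2⟩ : V))
          (fun x y h => by
            apply Subtype.ext
            apply Subtype.ext
            simpa using congrArg Subtype.val h)
      rw [hVc] at h1
      exact h1
  exact powerLaw_of_metacyclic (hL.to_subgroup X) le_rfl hm

end centralizer

section step

variable {L : Type u} [Group L] [Finite L]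

/-- A subgroup containing `A` properly with index dividing a prime. -/
theorem sup_zpowers_eq_of_card {p : ℕ} [hp : Fact p.Prime] (hL : IsPGroup p L) {A B : Subgroup L}
    (hAB : A ≤ B) (hc : Nat.card B = Nat.card A * p) {z : L} (hzB : z ∈ B) (hzA : z ∉ A) :
    A ⊔ zpowers z = B := by
  have h1 : A < A ⊔ zpowers z := by
    refine lt_of_le_of_ne le_sup_left ?_
    intro h
    apply hzA
    rw [h]
    exact mem_sup_right (mem_zpowers z)
  have h2 := card_mul_prime_le_of_lt hL h1
  apply Subgroup.eq_of_le_of_card_ge (sup_le hAB (zpowers_le.mpr hzB))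
  rw [hc]
  exact h2

/-- If `z ∈ γ_j` is central modulo `γ_{j+2}`, then `z ∈ γ_{j+1}`, when `|γ_j : γ_{j+1}| = p` and
`γ_{j+1} ≠ 1`. -/
theorem mem_next_of_central {p : ℕ} [hp : Fact p.Prime] (hL : IsPGroup p L) (M : Subgroup L) [hM : M.Normal] {j : ℕ}
    {z : L} (hz : z ∈ M.lowerCentralSeries j)
    (hc : ∀ g ∈ M, ⁅z, g⁆ ∈ M.lowerCentralSeries (j + 2))
    (hcard : Nat.card (M.lowerCentralSeries j) = Nat.card (M.lowerCentralSeries (j + 1)) * p)
    (hne : M.lowerCentralSeries (j + 1) ≠ ⊥) : z ∈ M.lowerCentralSeries (j + 1) := by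
  by_contra hzn
  haveI := lcs_normal M (j + 2)
  have hle : M.lowerCentralSeries (j + 1) ≤ relCent M (M.lowerCentralSeries (j + 2)) := by
    intro e he g hg
    exact commutator_mem_commutator he hg
  have hzR : z ∈ relCent M (M.lowerCentralSeries (j + 2)) := hc
  have h1 := sup_zpowers_eq_of_card hL
    (Subgroup.lowerCentralSeries_antitone M (Nat.le_succ j)) hcard hz hzn
  have h2 : M.lowerCentralSeries j ≤ relCent M (M.lowerCentralSeries (j + 2)) := by
    rw [← h1]
    exact sup_le hle (zpowers_le.mpr hzR)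
  have h3 : M.lowerCentralSeries (j + 1) ≤ M.lowerCentralSeries (j + 2) := by
    show ⁅M.lowerCentralSeries j, M⁆ ≤ _
    rw [Subgroup.commutator_le]
    intro e he g hg
    exact h2 he g hg
  exact absurd h3 (not_le_of_gt (lcs_succ_lt hL M hne))

/-- **The step.** Let `L` be a `3`-group of rank at most two, `M` a maximal subgroup of order `3^k`, `k ≥ 4`, of maximal
class. Then `L` has maximal class. -/
theorem maxClass_step (hL : IsPGroup 3 L) (hr : Cfsg.PRankLE 3 2 L) {M : Subgroup L} (hM : IsCoatom M) {k : ℕ}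
    (hk4 : 4 ≤ k) (hMc : Nat.card M = 3 ^ k) (hne : M.lowerCentralSeries (k - 2) ≠ ⊥) :
    (⊤ : Subgroup L).lowerCentralSeries (k - 1) ≠ ⊥ := by
  classical
  have hMn : M.Normal := Cfsg.Agent.Lib.PGroup.FrattiniBasis.coatom_normal hL hM
  have hMi : M.index = 3 := Cfsg.Agent.Lib.PGroup.FrattiniBasis.coatom_index hL hM
  have hγn : ∀ i, (M.lowerCentralSeries i).Normal := lcs_normal M
  have hcard : ∀ i, 1 ≤ i → i ≤ k - 1 → Nat.card (M.lowerCentralSeries i) = 3 ^ (k - 1 - i) :=
    fun i h1 h2 => card_lcs_of_maxClass hL hMc (by omega) hne h1 h2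
  have hstep : ∀ i, 1 ≤ i → i + 1 ≤ k - 1 →
      Nat.card (M.lowerCentralSeries i) = Nat.card (M.lowerCentralSeries (i + 1)) * 3 := by
    intro i h1 h2
    rw [hcard i h1 (by omega), hcard (i + 1) (by omega) h2, ← pow_succ]
    congr 1
    omega
  have hidx : Nat.card M ≤ Nat.card (⁅M, M⁆ : Subgroup L) * 3 ^ 2 := by
    have h1 : Nat.card (⁅M, M⁆ : Subgroup L) = 3 ^ (k - 1 - 1) := hcard 1 le_rfl (by omega)
    rw [h1, hMc, ← pow_add]
    apply Nat.pow_le_pow_right (by norm_num)
    omega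
  have hγ1 : M.lowerCentralSeries 1 = ⁅M, M⁆ := rfl
  by_cases hcase : ∀ a b : L, ⁅a, b⁆ ∈ M.lowerCentralSeries 1
  swap
  · -- `L / γ₂(M)` is not abelian
    push Not at hcase
    obtain ⟨a, b, hab⟩ := hcase
    have htM : ⁅a, b⁆ ∈ M := Cfsg.Agent.Lib.PGroup.FrattiniBasis.commutator_le_coatom hL hM
      (commutator_mem_commutator trivial trivial)
    have htΓ : ⁅a, b⁆ ∈ (⊤ : Subgroup L).lowerCentralSeries 1 :=
      commutator_mem_commutator (show a ∈ (⊤ : Subgroup L) from trivial) trivial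
    have hΓn : ((⊤ : Subgroup L).lowerCentralSeries 2).Normal := lcs_normal _ 2
    have h1 : M.lowerCentralSeries 1 ≤ (⊤ : Subgroup L).lowerCentralSeries 2 :=
      comm_le_of_comm_mem hL hidx htM hab (fun g _ n hn => hΓn.conj_mem n hn g)
        (fun g _ => commutator_mem_commutator htΓ trivial)
    have h2 : ∀ i, M.lowerCentralSeries (i + 1) ≤ (⊤ : Subgroup L).lowerCentralSeries (i + 2) := by
      intro i
      induction i with
      | zero => exact h1
      | succ i ih => exact commutator_mono ih le_top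
    have h3 := h2 (k - 3)
    rw [show k - 3 + 1 = k - 2 by omega, show k - 3 + 2 = k - 1 by omega] at h3
    intro h4
    apply hne
    rw [eq_bot_iff, ← h4]
    exact h3
  exfalso
  -- `M` is not cyclic
  have hγ1ne : M.lowerCentralSeries 1 ≠ ⊥ := lcs_ne_bot_of_le M (by omega) hne
  have hnc : ¬ IsCyclic M := by
    intro hc
    apply hγ1ne
    rw [hγ1, eq_bot_iff, Subgroup.commutator_le]
    intro u hu v hv
    rw [Subgroup.mem_bot, commutatorElement_eq_one_iff_mul_comm]
    have := (IsCyclic.isMulCommutative (α := M)).is_comm.comm ⟨u, hu⟩ ⟨v, hv⟩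
    exact congrArg Subtype.val this
  obtain ⟨V, hVM, hVn, hVe, hVc⟩ := exists_normal_rank_two (by norm_num) hL M hnc
  obtain ⟨hVcomm, hVexp⟩ := Cfsg.Agent.Lib.PGroup.Basic.isElementaryAbelian_iff.mp hVe
  -- `V ≤ γ₂(M)`
  have hVγ : V ≤ M.lowerCentralSeries 1 := by
    intro v hv
    by_contra hvγ
    have h1 : ⁅M, M⁆ ≤ V := comm_le_of_comm_mem hL hidx (hVM hv) hvγ
      (fun g _ n hn => hVn.conj_mem n hn g)
      (fun g _ => by
        have h2 : ⁅v, g⁆ = v * (g * v⁻¹ * g⁻¹) := by simp [commutatorElement_def, mul_assoc]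
        rw [h2]
        exact mul_mem hv (hVn.conj_mem _ (inv_mem hv) g))
    have h2 : (⁅M, M⁆ : Subgroup L) = V := by
      apply Subgroup.eq_of_le_of_card_ge h1
      have h3 : Nat.card (⁅M, M⁆ : Subgroup L) = 3 ^ (k - 1 - 1) := hcard 1 le_rfl (by omega)
      rw [hVc, h3]
      exact Nat.pow_le_pow_right (by norm_num) (by omega)
    apply hvγ
    rw [hγ1, h2]
    exact hv
  set X := centralizer (V : Set L) with hX
  have hXn : X.Normal := by
    rw [hX]
    infer_instance
  have hXi : X.index ≤ 3 := index_centralizer_le_of_card_sq hL V hVc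
  have hLX : PowerLaw 3 X := powerLaw_centralizer hL hr hVe hVc
  have hΩ : ∀ x ∈ X, x ^ 3 = 1 → x ∈ V := fun x hx h3 => cube_root_mem hr hVe hVc hx h3
  have hVX : V ≤ X := le_centralizer_self hVe
  -- `V` is not central in `M`
  have hMX : ¬ M ≤ X := by
    intro hle
    have hv : ∀ v ∈ V, ∀ j, v ∈ M.lowerCentralSeries (min (j + 1) (k - 2)) := by
      intro v hv j
      induction j with
      | zero =>
        rw [show min (0 + 1) (k - 2) = 1 by omega]
        exact hVγ hv
      | succ j ih =>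
        by_cases hj : j + 1 + 1 ≤ k - 2
        · rw [show min (j + 1 + 1) (k - 2) = j + 1 + 1 by omega]
          rw [show min (j + 1) (k - 2) = j + 1 by omega] at ih
          apply mem_next_of_central hL M ih
          · intro g hg
            have h1 : ⁅v, g⁆ = 1 := by
              rw [commutatorElement_eq_one_iff_mul_comm]
              exact mem_centralizer_iff.mp (hle hg) v hv
            rw [h1]
            exact one_mem _
          · exact hstep _ (by omega) (by omega)
          · exact lcs_ne_bot_of_le M hj hne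
        · rw [show min (j + 1 + 1) (k - 2) = k - 2 by omega]
          rwa [show min (j + 1) (k - 2) = k - 2 by omega] at ih
    have h1 : V ≤ M.lowerCentralSeries (k - 2) := by
      intro v hvV
      have := hv v hvV (k - 3)
      rwa [show min (k - 3 + 1) (k - 2) = k - 2 by omega] at this
    have h2 := Subgroup.card_le_of_le h1
    rw [hVc, hcard (k - 2) (by omega) (by omega), show k - 1 - (k - 2) = 1 by omega] at h2
    norm_num at h2
  have hXM : ¬ X ≤ M := by
    intro hle
    apply hMX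
    have h1 := M.card_mul_index
    have h2 := X.card_mul_index
    rw [hMi] at h1
    have h3 : M = X := by
      symm
      apply Subgroup.eq_of_le_of_card_ge hle
      have h4 : Nat.card M * 3 ≤ Nat.card X * 3 := by
        rw [h1, ← h2]
        exact Nat.mul_le_mul_left _ hXi
      exact Nat.le_of_mul_le_mul_right h4 (by norm_num)
    exact h3.le
  obtain ⟨c, hcX, hcM⟩ : ∃ c ∈ X, c ∉ M := by
    by_contra hcon
    push Not at hcon
    exact hXM hcon
  -- the subgroup `X₁`
  set X₁ := X ⊓ M with hX₁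
  have hX₁n : X₁.Normal := by
    rw [hX₁]
    infer_instance
  have hcardX₁ : Nat.card M = Nat.card X₁ * 3 := by
    have h1 := card_eq_mul_relIndex (inf_le_right : X ⊓ M ≤ M)
    rw [Subgroup.inf_relIndex_right] at h1
    have h2 : X.relIndex M ∣ X.index := Subgroup.relIndex_dvd_index_of_normal X M
    have h3 : X.relIndex M ≤ 3 :=
      (Nat.le_of_dvd (Nat.pos_of_ne_zero Subgroup.index_ne_zero_of_finite) h2).trans hXi
    have h4 : X.relIndex M ∣ 3 ^ k := by
      rw [← hMc]
      exact Subgroup.relIndex_dvd_card X M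
    obtain ⟨e, -, he⟩ := (Nat.dvd_prime_pow Nat.prime_three).mp h4
    have h5 : X.relIndex M ≠ 1 := by
      intro h
      rw [Subgroup.relIndex_eq_one] at h
      exact hMX h
    have h6 : X.relIndex M = 3 := by
      rw [he] at h3 h5 ⊢
      have he1 : e = 1 := by
        rcases e with _ | _ | e
        · simp at h5
        · rfl
        · exfalso
          have : 3 ^ 2 ≤ 3 ^ (e + 1 + 1) := Nat.pow_le_pow_right (by norm_num) (by omega)
          omega
      rw [he1, pow_one]
    rw [h6] at h1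
    exact h1
  have hγX₁ : M.lowerCentralSeries 1 ≤ X₁ := by
    rw [hγ1, Subgroup.commutator_le]
    intro u hu v _
    exact Cfsg.Agent.Lib.PGroup.RankTwo.Data.comm_mem_of_card_eq_mul hL inf_le_right hcardX₁ hu v
  have hVX₁ : V ≤ X₁ := le_inf hVX hVM
  have hLX₁ : PowerLaw 3 X₁ := powerLaw_of_le hLX inf_le_left
  have hcountX₁ := card_eq_card_pw_mul hL hLX₁ hVX₁ (fun x hx hx3 => hΩ x hx.1 hx3) hVexp
  rw [hVc] at hcountX₁
  -- `γ₃(M) ≤ ℧(X₁)`
  have hUn : (pw 3 X₁).Normal := pw_normal X₁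
  have hUM : pw 3 X₁ ≤ M := (pw_le_self X₁).trans inf_le_right
  have hγ2U : M.lowerCentralSeries 2 ≤ pw 3 X₁ := by
    refine lcs_le_of_card_quot (p := 3) hL hUM ?_ (j := 3) (by norm_num)
    rw [hcardX₁, hcountX₁]
    ring
  have hc3U : c ^ 3 ∉ pw 3 X₁ := by
    intro h
    obtain ⟨m, hm, hcm⟩ := (rel_mem_pw_iff hL hLX₁).mp h
    have h1 : (c * m⁻¹) ^ 3 = 1 := (rel_pow_eq_iff hL hLX hcX hm.1).mp hcm
    have h2 : c * m⁻¹ ∈ V := hΩ _ (mul_mem hcX (inv_mem hm.1)) h1
    apply hcM
    have h3 : c = (c * m⁻¹) * m := by group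
    rw [h3]
    exact mul_mem (hVM h2) hm.2
  have hc3M : c ^ 3 ∈ M := Cfsg.Agent.Lib.PGroup.FrattiniBasis.pow_mem_coatom hL hM c
  have hγ12 : Nat.card (M.lowerCentralSeries 1) = Nat.card (M.lowerCentralSeries 2) * 3 :=
    hstep 1 le_rfl (by omega)
  have hγ23 : Nat.card (M.lowerCentralSeries 2) = Nat.card (M.lowerCentralSeries 3) * 3 :=
    hstep 2 (by omega) (by omega)
  haveI hn1 := hγn 1
  haveI hn2 := hγn 2
  haveI hn3 := hγn 3
  have hle21 : M.lowerCentralSeries 2 ≤ M.lowerCentralSeries 1 :=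
    Subgroup.lowerCentralSeries_antitone M (by norm_num)
  have hle32 : M.lowerCentralSeries 3 ≤ M.lowerCentralSeries 2 :=
    Subgroup.lowerCentralSeries_antitone M (by norm_num)
  have hc1 : ∀ e ∈ M.lowerCentralSeries 1, ⁅c, e⁆ ∈ M.lowerCentralSeries 2 := by
    intro e he
    rw [← commutatorElement_inv]
    exact inv_mem (Cfsg.Agent.Lib.PGroup.RankTwo.Data.comm_mem_of_card_eq_mul hL hle21 hγ12 he c)
  have hcube12 : ∀ e ∈ M.lowerCentralSeries 1, e ^ 3 ∈ M.lowerCentralSeries 2 :=
    fun e he => pow_mem_of_card_eq_mul hle21 hγ12 he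
  have hc3comm : ∀ g ∈ M, ⁅c ^ 3, g⁆ ∈ M.lowerCentralSeries 2 := fun g _ =>
    comm_cube_mem rfl (hc1 _ (hcase c g)) (hcube12 _ (hcase c g))
  have hγ2ne : M.lowerCentralSeries 2 ≠ ⊥ := lcs_ne_bot_of_le M (by omega) hne
  have hlt21 := lcs_succ_lt hL M hγ1ne
  have hc3γ1 : c ^ 3 ∈ M.lowerCentralSeries 1 := by
    by_contra h
    have h1 : ⁅M, M⁆ ≤ M.lowerCentralSeries 2 := comm_le_of_comm_mem hL hidx hc3M h
      (fun g _ n hn => hn2.conj_mem n hn g) hc3comm
    exact absurd h1 (not_le_of_gt hlt21)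
  have hc3γ2 : c ^ 3 ∉ M.lowerCentralSeries 2 := fun h => hc3U (hγ2U h)
  -- `c` centralizes `γ₂(M)/γ₄(M)`
  have hsup := sup_zpowers_eq_of_card hL hle21 hγ12 hc3γ1 hc3γ2
  have hc2 : ∀ e ∈ M.lowerCentralSeries 1, ⁅c, e⁆ ∈ M.lowerCentralSeries 3 := by
    have h1 : M.lowerCentralSeries 1 ≤ relCent (zpowers c) (M.lowerCentralSeries 3) := by
      rw [← hsup]
      refine sup_le ?_ ?_
      · intro f hf g _
        exact Cfsg.Agent.Lib.PGroup.RankTwo.Data.comm_mem_of_card_eq_mul hL hle32 hγ23 hf g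
      · rw [zpowers_le]
        intro g hg
        obtain ⟨i, rfl⟩ := hg
        have h2 : Commute (c ^ 3) (c ^ i) := ((Commute.refl c).pow_left 3).zpow_right i
        simp only
        rw [commutatorElement_eq_one_iff_mul_comm.mpr h2.eq]
        exact one_mem _
    intro e he
    have h2 := h1 he c (mem_zpowers c)
    rw [← commutatorElement_inv]
    exact inv_mem h2
  -- cubes of elements of `γ₂(M)` lie in `γ₄(M)`
  have hcube13 : ∀ e ∈ M.lowerCentralSeries 1, e ^ 3 ∈ M.lowerCentralSeries 3 := by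
    have hLγ : PowerLaw 3 (M.lowerCentralSeries 1) :=
      powerLaw_of_le hLX (hγX₁.trans inf_le_left)
    have hcount := card_eq_card_pw_mul hL hLγ hVγ (fun x hx hx3 => hΩ x (hγX₁ hx).1 hx3) hVexp
    rw [hVc] at hcount
    have hU₂n : (pw 3 (M.lowerCentralSeries 1)).Normal := pw_normal _
    have hU₂M : pw 3 (M.lowerCentralSeries 1) ≤ M := (pw_le_self _).trans (lcs_le_self M 1)
    have h1 : Nat.card M = Nat.card (M.lowerCentralSeries 1) * 3 ^ 2 := by
      rw [hcard 1 le_rfl (by omega), hMc, ← pow_add]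
      congr 1
      omega
    have h2 : M.lowerCentralSeries 3 ≤ pw 3 (M.lowerCentralSeries 1) := by
      refine lcs_le_of_card_quot (p := 3) hL hU₂M ?_ (j := 4) (by norm_num)
      rw [h1, hcount]
      ring
    have h3 : M.lowerCentralSeries 3 = pw 3 (M.lowerCentralSeries 1) := by
      apply Subgroup.eq_of_le_of_card_ge h2
      have h4 : Nat.card (pw 3 (M.lowerCentralSeries 1)) * 3 ^ 2 =
          Nat.card (M.lowerCentralSeries 3) * 3 ^ 2 := by
        rw [← hcount, hγ12, hγ23]
        ring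
      exact (Nat.eq_of_mul_eq_mul_right (by norm_num) h4).le
    intro e he
    rw [h3]
    exact subset_closure ⟨e, he, rfl⟩
  have hc3comm3 : ∀ g ∈ M, ⁅c ^ 3, g⁆ ∈ M.lowerCentralSeries 3 := fun g _ =>
    comm_cube_mem rfl (hc2 _ (hcase c g)) (hcube13 _ (hcase c g))
  exact hc3γ2 (mem_next_of_central hL M hc3γ1 hc3comm3 hγ12 hγ2ne)

end step

section wrap

/-- A `3`-group of rank at most two containing a subgroup of maximal class of order at least `81` has maximal class. -/
theorem maxClass_of_subgroup : ∀ (n : ℕ) (L : Type u) [Group L] [Finite L], IsPGroup 3 L →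
    Cfsg.PRankLE 3 2 L → ∀ (H : Subgroup L) (k : ℕ), 4 ≤ k → Nat.card H = 3 ^ k →
    H.lowerCentralSeries (k - 2) ≠ ⊥ → ∀ m, Nat.card L = 3 ^ m → Nat.card L = n →
    (⊤ : Subgroup L).lowerCentralSeries (m - 2) ≠ ⊥ := by
  intro n
  induction n using Nat.strong_induction_on with
  | _ n ih =>
  intro L _ _ hL hr H k hk4 hHc hne m hm hn
  by_cases hH : H = ⊤
  · subst hH
    rw [Subgroup.card_top, hm] at hHc
    have := Nat.pow_right_injective (le_refl 2 |>.trans (by norm_num : 2 ≤ 3)) hHc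
    subst this
    exact hne
  obtain ⟨M, hM, hHM⟩ := (eq_top_or_exists_le_coatom H).resolve_left hH
  have hMi := Cfsg.Agent.Lib.PGroup.FrattiniBasis.coatom_index hL hM
  obtain ⟨m', hm'⟩ := IsPGroup.iff_card.mp (hL.to_subgroup M)
  have hmm : m = m' + 1 := by
    have h1 := M.card_mul_index
    rw [hMi, hm', hm, ← pow_succ] at h1
    exact (Nat.pow_right_injective (by norm_num : 2 ≤ 3) h1).symm
  have hcard : Nat.card M < n := by
    rw [← hn]
    have h1 := Cfsg.Agent.Lib.PGroup.Regular.card_lt_of_lt (lt_top_iff_ne_top.mpr hM.1)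
    rwa [Subgroup.card_top] at h1
  have hH' : Nat.card (H.subgroupOf M) = 3 ^ k := by
    rw [← hHc]
    exact Nat.card_congr (Subgroup.subgroupOfEquivOfLe hHM).toEquiv
  have hne' : (H.subgroupOf M).lowerCentralSeries (k - 2) ≠ ⊥ := by
    intro h
    apply hne
    have h1 := map_lcs M.subtype (H.subgroupOf M) (k - 2)
    rw [h, Subgroup.map_bot, Subgroup.map_subgroupOf_eq_of_le hHM] at h1
    exact h1.symm
  have h1 := ih _ hcard M (hL.to_subgroup M) (Cfsg.Agent.Lib.PGroup.RankTwo.prankLE_subgroup hr M) (H.subgroupOf M) k hk4 hH' hne' m' hm' rfl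
  have hk' : k ≤ m' := by
    have h2 := Subgroup.card_le_of_le hHM
    rw [hHc, hm'] at h2
    exact (Nat.pow_le_pow_iff_right (by norm_num)).mp h2
  have h2 : M.lowerCentralSeries (m' - 2) ≠ ⊥ := by
    intro h
    apply h1
    have h3 := Subgroup.top_subtype_lowerCentralSeries (H := M) (m' - 2)
    rw [h, Subgroup.map_eq_bot_iff_of_injective _ M.subtype_injective] at h3
    exact h3
  have h3 := maxClass_step hL hr hM (by omega) hm' h2
  rwa [hmm, show m' + 1 - 2 = m' - 1 by omega]

end wrap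

end Cfsg.Agent.Lib.PGroup.RankTwoThree
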