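import Mathlib
import Cfsg.Agent.Lib.PGroup.RankTwoThree.MaxClassStep

/-!
# `3`-groups of rank two
-/

namespace Cfsg.Agent.Lib.PGroup.RankTwoThree

open Subgroup Cfsg.Agent.Lib.PGroup.Regular Cfsg.Agent.Lib.PGroup.HallPetrescu
open Cfsg.Agent.Lib.PGroup.HuppertA
open Cfsg.Agent.Lib.PGroup.Critical Cfsg.Agent.Lib.PGroup.NormalRank Cfsg.Agent.Lib.PGroup.RankThree
open Cfsg.Agent.Lib.PGroup.RankTwo
open scoped commutatorElement

universe u

set_option linter.unusedSectionVars false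
set_option linter.unusedVariables false
set_option linter.style.haveILetI false

/-- The dichotomy, with the power law for the centralizer of `V` as a hypothesis. -/
theorem dichotomy_of_powerLaw {G : Type u} [Group G] [Finite G] {p : ℕ} [hp : Fact p.Prime] (D : Data G p)
    (hp2 : p ≠ 2) (hLX : PowerLaw p (centralizer (D.V : Set G))) (hG : IsPGroup p G) :
    D.E ⊔ centralizer (D.E : Set G) = ⊤ ∨
      ∃ z ∈ centralizer (D.V : Set G), z ∉ D.E ⊔ centralizer (D.E : Set G) ∧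
        centralizer (D.E : Set G) = zpowers (z ^ p) := by
  by_cases hM : D.E ⊔ centralizer (D.E : Set G) = ⊤
  · exact Or.inl hM
  right
  obtain ⟨g, hg⟩ : ∃ g, g ∉ D.E ⊔ centralizer (D.E : Set G) := by
    by_contra hcon
    push Not at hcon
    exact hM (eq_top_iff.mpr fun y _ => hcon y)
  have hXn : (centralizer (D.V : Set G)).Normal := by
    have := D.hVn
    infer_instance
  have htop := Data.sup_zpowers_eq_top hG (D.X_index hG) D.x_notMem_X
  have hgmem : g ∈ ((centralizer (D.V : Set G) ⊔ zpowers D.x : Subgroup G) : Set G) := by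
    rw [htop]; trivial
  rw [Subgroup.normal_mul] at hgmem
  obtain ⟨z, hz, b, hb, rfl⟩ := Set.mem_mul.mp hgmem
  have hbE : b ∈ D.E := (zpowers_le.mpr D.hxE) hb
  have hzM : z ∉ D.E ⊔ centralizer (D.E : Set G) := by
    intro h
    exact hg (mul_mem h (mem_sup_left hbE))
  refine ⟨z, hz, hzM, ?_⟩
  have hzX : z ∈ centralizer (D.V : Set G) := hz
  have huV := D.u_mem_V hG z
  have hconj : ∀ k : ℕ, z ^ k * D.x * (z ^ k)⁻¹ = D.x * D.u z ^ k := by
    intro k
    have hk := pow_mem hzX k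
    rw [D.conj_eq, D.u_pow hG hzX]
  have hzy : z * D.y = D.y * z := (D.mem_centralizer_V_iff).mp hzX
  have hzpX : z ^ p ∈ centralizer (D.V : Set G) := pow_mem hzX p
  have hupow : D.u z ^ p = 1 := (D.hEmem _).mp (D.hVE huV)
  have hzpC : z ^ p ∈ centralizer (D.E : Set G) := by
    rw [D.mem_centralizer_E_iff hG]
    refine ⟨(D.mem_centralizer_V_iff).mp hzpX, ?_⟩
    have := hconj p
    rw [hupow, mul_one] at this
    exact mul_inv_eq_iff_eq_mul.mp this
  have hcyc := D.C_isCyclic hG hp2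
  obtain ⟨c, hc⟩ := IsCyclic.exists_generator (α := centralizer (D.E : Set G))
  set c₀ : G := (c : G) with hc₀
  have hc₀C : c₀ ∈ centralizer (D.E : Set G) := c.2
  have hCeq : centralizer (D.E : Set G) = zpowers c₀ := by
    apply le_antisymm
    · intro a ha
      obtain ⟨k, hk⟩ := hc ⟨a, ha⟩
      exact ⟨k, by simpa using congrArg Subtype.val hk⟩
    · exact zpowers_le.mpr hc₀C
  have hzpc : z ^ p ∈ Submonoid.powers c₀ := by
    apply mem_powers_iff_mem_zpowers.mpr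
    rw [← hCeq]
    exact hzpC
  obtain ⟨i, hi⟩ := hzpc
  simp only at hi
  by_cases hpi : p ∣ i
  · exfalso
    obtain ⟨j, rfl⟩ := hpi
    have hcj : c₀ ^ j ∈ centralizer (D.V : Set G) := D.C_le_X (pow_mem hc₀C j)
    have h2 : (z * (c₀ ^ j)⁻¹) ^ p = 1 := (rel_pow_eq_iff hG hLX hzX hcj).mp (by
      rw [← hi, mul_comm, pow_mul])
    have h3 : z * (c₀ ^ j)⁻¹ ∈ D.E := (D.hEmem _).mpr h2
    apply hzM
    have h4 : z = (z * (c₀ ^ j)⁻¹) * c₀ ^ j := by group
    rw [h4]
    exact mul_mem (mem_sup_left h3) (mem_sup_right (pow_mem hc₀C j))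
  · have hCop : (orderOf c₀).Coprime i := by
      obtain ⟨s, hs⟩ := (IsPGroup.iff_orderOf.mp hG) c₀
      rw [hs]
      exact Nat.Coprime.pow_left _ ((Nat.Prime.coprime_iff_not_dvd hp.out).mpr hpi)
    have h1 : orderOf (c₀ ^ i) = orderOf c₀ := hCop.orderOf_pow
    rw [hCeq, ← hi]
    symm
    apply Subgroup.eq_of_le_of_card_ge (zpowers_le.mpr (pow_mem (mem_zpowers c₀) i))
    rw [Nat.card_zpowers, Nat.card_zpowers, h1]

section exponent

variable {L : Type u} [Group L] [Finite L]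

/-- A subgroup of class at most two generated by elements of order dividing `3` has exponent `3`. -/
theorem cube_one_of_sup (hL : IsPGroup 3 L) {E A : Subgroup L} {x : L} (hE : E.lowerCentralSeries 2 = ⊥)
    (hEeq : A ⊔ zpowers x = E) (hA : ∀ a ∈ A, a ^ 3 = 1) (hx : x ^ 3 = 1) : ∀ e ∈ E, e ^ 3 = 1 := by
  have htop : (⊤ : Subgroup E).lowerCentralSeries 2 = ⊥ := by
    have h3 := Subgroup.top_subtype_lowerCentralSeries E 2
    rwa [hE, Subgroup.map_eq_bot_iff_of_injective _ E.subtype_injective] at h3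
  have hLE : PowerLaw 3 E := powerLaw_of_class_lt Nat.prime_three htop
  obtain ⟨Ω, -, hΩ⟩ := exists_omega_subgroup (hL.to_subgroup E) hLE
  have hΩmem : ∀ g, g ∈ Ω ↔ g ^ 3 = 1 := by
    intro g
    have : g ∈ (Ω : Set E) ↔ g ∈ {x : E | x ^ 3 = 1} := by rw [hΩ]
    exact this
  have hle : A ⊔ zpowers x ≤ Ω.map E.subtype := by
    refine sup_le ?_ ?_
    · intro a ha
      have haE : a ∈ E := by
        rw [← hEeq]
        exact mem_sup_left ha
      exact ⟨⟨a, haE⟩, (hΩmem _).mpr (Subtype.ext (by simpa using hA a ha)), rfl⟩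
    · rw [zpowers_le]
      have hxE : x ∈ E := by
        rw [← hEeq]
        exact mem_sup_right (mem_zpowers x)
      exact ⟨⟨x, hxE⟩, (hΩmem _).mpr (Subtype.ext (by simpa using hx)), rfl⟩
  intro e he
  rw [← hEeq] at he
  obtain ⟨ω, hω, rfl⟩ := hle he
  have := (hΩmem ω).mp hω
  simpa using congrArg Subtype.val this

end exponent

/-- If a `3`-group of rank two has a subgroup `E` of order `27` and exponent `3`, and an element of order `3`
outside it, then it has a subgroup of order `81` and class `3`. -/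
theorem exists_81 : ∀ (n : ℕ) (G : Type u) [Group G] [Finite G], IsPGroup 3 G →
    Cfsg.PRankLE 3 2 G → ∀ E : Subgroup G, Nat.card E = 3 ^ 3 → (∀ e ∈ E, e ^ 3 = 1) → Nat.card G = n →
    ∀ x : G, x ^ 3 = 1 → x ∉ E →
      ∃ H : Subgroup G, Nat.card H = 3 ^ 4 ∧ H.lowerCentralSeries 2 ≠ ⊥ := by
  intro n
  induction n using Nat.strong_induction_on with
  | _ n ih =>
    intro G _ _ hG hr E hE hEp hn x hx hxE
    have hsub : ∀ L : Subgroup G, L ≠ ⊤ → E ≤ L → ∀ m ∈ L, m ^ 3 = 1 → m ∉ E →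
        ∃ H : Subgroup G, Nat.card H = 3 ^ 4 ∧ H.lowerCentralSeries 2 ≠ ⊥ := by
      intro L hL hEL m hm hmp hmE
      have hcard : Nat.card L < n := by
        rw [← hn]
        have h1 := Cfsg.Agent.Lib.PGroup.Regular.card_lt_of_lt (lt_top_iff_ne_top.mpr hL)
        rwa [Subgroup.card_top] at h1
      have h2 : Nat.card (E.subgroupOf L) = 3 ^ 3 := by
        rw [← hE]
        exact Nat.card_congr (Subgroup.subgroupOfEquivOfLe hEL).toEquiv
      obtain ⟨H, hH, hHne⟩ := ih _ hcard L (hG.to_subgroup L) (prankLE_subgroup hr L) (E.subgroupOf L) h2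
        (fun e he => Subtype.ext (by simpa using hEp _ (Subgroup.mem_subgroupOf.mp he)))
        rfl ⟨m, hm⟩ (Subtype.ext (by simpa using hmp)) (fun h => hmE (Subgroup.mem_subgroupOf.mp h))
      refine ⟨H.map L.subtype, ?_, ?_⟩
      · rw [← hH]
        exact Nat.card_congr (Subgroup.equivMapOfInjective _ _ L.subtype_injective).symm.toEquiv
      · rw [← map_lcs]
        intro h
        rw [Subgroup.map_eq_bot_iff_of_injective _ L.subtype_injective] at h
        exact hHne h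
    by_cases hLtop : E ⊔ zpowers x = ⊤
    swap
    · exact hsub _ hLtop le_sup_left x (mem_sup_right (mem_zpowers x)) hx hxE
    have hEne : E ≠ ⊤ := by
      intro h
      apply hxE
      rw [h]; trivial
    obtain ⟨M, hM, hEM⟩ := (eq_top_or_exists_le_coatom E).resolve_left hEne
    have hMn : M.Normal := Cfsg.Agent.Lib.PGroup.FrattiniBasis.coatom_normal hG hM
    by_cases hMx : ∃ m ∈ M, m ^ 3 = 1 ∧ m ∉ E
    · obtain ⟨m, hm, hm3, hmE⟩ := hMx
      exact hsub M hM.1 hEM m hm hm3 hmE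
    push Not at hMx
    have hxnorm : ∀ e ∈ E, x * e * x⁻¹ ∈ E := by
      intro e he
      refine hMx _ (hMn.conj_mem e (hEM he) x) ?_
      rw [conj_pow, hEp e he]
      simp
    have hnorm : E.Normal := by
      have h1 : E ⊔ zpowers x ≤ normalizer (E : Set G) := by
        refine sup_le le_normalizer ?_
        rw [zpowers_le]
        apply Cfsg.Agent.Lib.PGroup.Replacement.mem_normalizer_of_conj_mem
        exact hxnorm
      rw [hLtop] at h1
      exact normalizer_eq_top_iff.mp (top_le_iff.mp h1)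
    have hcard : Nat.card G = 3 ^ 4 := by
      have h1 := card_sup_zpowers E hxE (p := 3) (by rw [hx]; exact one_mem _)
      rw [hLtop, Subgroup.card_top, hE] at h1
      rw [h1]
      norm_num
    by_cases hl : (⊤ : Subgroup G).lowerCentralSeries 2 = ⊥
    · exfalso
      have hexp := cube_one_of_sup hG hl hLtop hEp hx
      have h1 := card_le_of_exponent hG (fun g => hexp g trivial) hr
      rw [hcard] at h1
      norm_num at h1
    · exact ⟨⊤, by rw [Subgroup.card_top, hcard], hl⟩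

section formula

variable {G : Type*} [Group G]

theorem rearr {u a b z : G} (h1 : u * a = a * u) (h2 : u * b = b * u) :
    u * a * (u * a * b) * u * z = a * a * b * (u * u * u * z) := by
  have e1 : ∀ y, u * (a * y) = a * (u * y) := by
    intro y
    rw [← mul_assoc, ← mul_assoc, h1]
  have e2 : ∀ y, u * (b * y) = b * (u * y) := by
    intro y
    rw [← mul_assoc, ← mul_assoc, h2]
  simp only [mul_assoc, e1, e2]

/-- The cube of `x m⁻¹`, when `x³ = m³`, and `m` centralizes `⁅x, m⁆` and its conjugate by `x`, and `⁅x, m⁆³ = 1`. -/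
theorem cube_formula {x m : G} (hxm : x ^ 3 = m ^ 3) (hv3 : ⁅x, m⁆ ^ 3 = 1) (hc1 : m * ⁅x, m⁆ = ⁅x, m⁆ * m)
    (hc2 : m * (x * ⁅x, m⁆⁻¹ * x⁻¹) = (x * ⁅x, m⁆⁻¹ * x⁻¹) * m) :
    (x * m⁻¹) ^ 3 = ⁅⁅x, m⁆, x⁆ := by
  set v := ⁅x, m⁆ with hv
  set v' := x * v⁻¹ * x⁻¹ with hv'
  have h1 : x * m⁻¹ * x⁻¹ = m⁻¹ * v⁻¹ := by
    rw [hv, commutatorElement_def]
    group
  have h2 : x * (x * m⁻¹ * x⁻¹) * x⁻¹ = m⁻¹ * v⁻¹ * v' := by
    rw [h1, hv']
    calc x * (m⁻¹ * v⁻¹) * x⁻¹ = (x * m⁻¹ * x⁻¹) * (x * v⁻¹ * x⁻¹) := by group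
      _ = _ := by rw [h1]
  have h3 : x ^ 3 * m⁻¹ * (x ^ 3)⁻¹ = m⁻¹ := by
    rw [hxm]
    simp only [pow_succ, pow_zero, one_mul]
    group
  have h4 : (x * m⁻¹) ^ 3 = (x * m⁻¹ * x⁻¹) * (x * (x * m⁻¹ * x⁻¹) * x⁻¹) * (x ^ 3 * m⁻¹ * (x ^ 3)⁻¹) * x ^ 3 := by
    simp only [pow_succ, pow_zero, one_mul]
    group
  have hc1' : m⁻¹ * v⁻¹ = v⁻¹ * m⁻¹ := by
    have : Commute m v := hc1
    exact this.inv_inv.eq
  have hc2' : m⁻¹ * v' = v' * m⁻¹ := by
    have : Commute m v' := hc2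
    exact this.inv_left.eq
  rw [h4, h2, h1, h3, hxm, rearr hc1' hc2']
  have h5 : m⁻¹ * m⁻¹ * m⁻¹ * m ^ 3 = 1 := by
    simp only [pow_succ, pow_zero, one_mul]
    group
  have h6 : v⁻¹ * v⁻¹ = v := by
    have h7 : v * v * v = 1 := by
      have := hv3
      simpa only [pow_succ, pow_zero, one_mul] using this
    calc v⁻¹ * v⁻¹ = v⁻¹ * v⁻¹ * (v * v * v) := by rw [h7, mul_one]
      _ = v := by group
  rw [h5, mul_one, h6, commutatorElement_def]
  rw [hv']
  group

end formula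

section caseTwo

variable {G : Type u} [Group G] [Finite G]

/-- If no element of order `3` lies outside `C_G(V)`, and all cubes are cubes of elements of `C_G(V)`, then
`G` has a subgroup of order `81` and class `3`. -/
theorem exists_81_of_no_outer_root (hG : IsPGroup 3 G) (hr : Cfsg.PRankLE 3 2 G) {V : Subgroup G} [hVn : V.Normal]
    (hVe : Cfsg.IsElementaryAbelian 3 V) (hVc : Nat.card V = 3 ^ 2) (hXne : centralizer (V : Set G) ≠ ⊤)
    (hNo : ∀ x, x ∉ centralizer (V : Set G) → x ^ 3 ≠ 1)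
    (hU : pw 3 (⊤ : Subgroup G) = pw 3 (centralizer (V : Set G))) :
    ∃ H : Subgroup G, Nat.card H = 3 ^ 4 ∧ H.lowerCentralSeries 2 ≠ ⊥ := by
  obtain ⟨hcomm, hexp⟩ := Cfsg.Agent.Lib.PGroup.Basic.isElementaryAbelian_iff.mp hVe
  set X := centralizer (V : Set G) with hX
  have hXn : X.Normal := by
    rw [hX]
    infer_instance
  have hLX : PowerLaw 3 X := powerLaw_centralizer hG hr hVe hVc
  have hΩ : ∀ x ∈ X, x ^ 3 = 1 → x ∈ V := fun x hx h3 => cube_root_mem hr hVe hVc hx h3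
  have hVX : V ≤ X := le_centralizer_self hVe
  have hconjV : ∀ v ∈ V, ∀ x : G, ⁅v, x⁆ ∈ V := by
    intro v hv x
    have h2 : ⁅v, x⁆ = v * (x * v⁻¹ * x⁻¹) := by simp [commutatorElement_def, mul_assoc]
    rw [h2]
    exact mul_mem hv (hVn.conj_mem _ (inv_mem hv) x)
  have key : ∀ x, x ∉ X → ∃ m ∈ X, x ^ 3 = m ^ 3 ∧ ⁅x, m⁆ ∈ V ∧ (x * m⁻¹) ^ 3 = ⁅⁅x, m⁆, x⁆ ∧ x * m⁻¹ ∉ X := by
    intro x hx
    have h1 : x ^ 3 ∈ pw 3 X := by
      rw [← hU]
      exact pow_mem_pw_top 3 x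
    obtain ⟨m, hm, hxm⟩ := (rel_mem_pw_iff hG hLX).mp h1
    have hm' : x * m * x⁻¹ ∈ X := hXn.conj_mem m hm x
    have hcube : (x * m * x⁻¹) ^ 3 = m ^ 3 := by
      rw [conj_pow, ← hxm]
      simp only [pow_succ, pow_zero, one_mul]
      group
    have hv3 : (x * m * x⁻¹ * m⁻¹) ^ 3 = 1 := (rel_pow_eq_iff hG hLX hm' hm).mp hcube
    have hvV : ⁅x, m⁆ ∈ V := hΩ _ (mul_mem hm' (inv_mem hm)) hv3
    have hv' : x * ⁅x, m⁆⁻¹ * x⁻¹ ∈ V := hVn.conj_mem _ (inv_mem hvV) x
    have hc1 : m * ⁅x, m⁆ = ⁅x, m⁆ * m := (mem_centralizer_iff.mp hm _ hvV).symm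
    have hc2 : m * (x * ⁅x, m⁆⁻¹ * x⁻¹) = (x * ⁅x, m⁆⁻¹ * x⁻¹) * m :=
      (mem_centralizer_iff.mp hm _ hv').symm
    refine ⟨m, hm, hxm, hvV, cube_formula hxm hv3 hc1 hc2, ?_⟩
    intro h
    apply hx
    have h2 : x = (x * m⁻¹) * m := by group
    rw [h2]
    exact mul_mem h hm
  obtain ⟨x₀, hx₀⟩ : ∃ x₀, x₀ ∉ X := by
    by_contra hcon
    push Not at hcon
    exact hXne (eq_top_iff.mpr fun y _ => hcon y)
  obtain ⟨m₀, hm₀, h0, hv0, hf0, hn0⟩ := key x₀ hx₀
  set x₁ := x₀ * m₀⁻¹ with hx₁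
  have hx₁3V : x₁ ^ 3 ∈ V := by
    rw [hf0]
    exact hconjV _ hv0 _
  have hx₁3ne : x₁ ^ 3 ≠ 1 := hNo _ hn0
  obtain ⟨a, ha, h1, hv1, hf1, hn1⟩ := key x₁ hn0
  have hne : ⁅⁅x₁, a⁆, x₁⁆ ≠ 1 := by
    rw [← hf1]
    exact hNo _ hn1
  have ha3V : a ^ 3 ∈ V := h1 ▸ hx₁3V
  have haV : a ∉ V := by
    intro h
    apply hx₁3ne
    rw [h1]
    exact hexp a h
  set K := V ⊔ zpowers a with hK
  have hKcard : Nat.card K = 3 ^ 2 * 3 := by
    rw [hK, card_sup_zpowers V haV ha3V, hVc]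
  have hKX : K ≤ X := sup_le hVX (zpowers_le.mpr ha)
  have hx₁K : x₁ ∉ K := fun h => hn0 (hKX h)
  have hconjK : ∀ e ∈ K, x₁ * e * x₁⁻¹ ∈ K := by
    have hle : K ≤ K.comap (MulAut.conj x₁).toMonoidHom := by
      refine sup_le ?_ ?_
      · intro v hv
        exact mem_sup_left (hVn.conj_mem v hv x₁)
      · rw [zpowers_le]
        show x₁ * a * x₁⁻¹ ∈ K
        have h2 : x₁ * a * x₁⁻¹ = ⁅x₁, a⁆ * a := by simp [commutatorElement_def]
        rw [h2]
        exact mul_mem (mem_sup_left hv1) (mem_sup_right (mem_zpowers a))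
    intro e he
    exact hle he
  have hnorm : zpowers x₁ ≤ normalizer (K : Set G) :=
    zpowers_le.mpr (Cfsg.Agent.Lib.PGroup.Replacement.mem_normalizer_of_conj_mem hconjK)
  have hsize := Cfsg.Agent.Lib.PGroup.Timmesfeld.card_sup_mul_card_inf_of_le_normalizer (zpowers x₁) K hnorm
  have horder : orderOf x₁ = 3 ^ 2 := by
    apply orderOf_eq_prime_pow (p := 3) (n := 1)
    · simpa using hx₁3ne
    · have : x₁ ^ 3 ^ 2 = (x₁ ^ 3) ^ 3 := by
        rw [← pow_mul]
        norm_num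
      rw [this]
      exact hexp _ hx₁3V
  have hAcard : Nat.card ↥(zpowers x₁ ⊓ K) = 3 := by
    have hAne : zpowers x₁ ⊓ K ≠ ⊥ := by
      intro h
      have h2 : x₁ ^ 3 ∈ zpowers x₁ ⊓ K :=
        ⟨pow_mem (mem_zpowers x₁) 3, mem_sup_left hx₁3V⟩
      rw [h, Subgroup.mem_bot] at h2
      exact hx₁3ne h2
    have h3 := prime_le_card_of_ne_bot hG hAne
    have hAlt : zpowers x₁ ⊓ K < zpowers x₁ := by
      refine lt_of_le_of_ne inf_le_left ?_
      intro h
      apply hx₁K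
      have h2 : x₁ ∈ zpowers x₁ ⊓ K := by
        rw [h]
        exact mem_zpowers x₁
      exact h2.2
    have h4 := card_mul_prime_le_of_lt hG hAlt
    rw [Nat.card_zpowers, horder] at h4
    omega
  refine ⟨zpowers x₁ ⊔ K, ?_, ?_⟩
  · rw [hAcard, Nat.card_zpowers, horder, hKcard] at hsize
    omega
  · intro h
    have hx₁H : x₁ ∈ zpowers x₁ ⊔ K := mem_sup_left (mem_zpowers x₁)
    have haH : a ∈ zpowers x₁ ⊔ K := mem_sup_right (mem_sup_right (mem_zpowers a))
    have h2 : ⁅⁅x₁, a⁆, x₁⁆ ∈ (zpowers x₁ ⊔ K).lowerCentralSeries 2 :=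
      commutator_mem_commutator (commutator_mem_commutator hx₁H haH) hx₁H
    rw [h, Subgroup.mem_bot] at h2
    exact hne h2

/-- **The classification of `3`-groups of rank at most two.** -/
theorem three_case {n : ℕ} (hn : Nat.card G = 3 ^ n) (hr : Cfsg.PRankLE 3 2 G) (hnm : ¬ Cfsg.IsMetacyclic G) :
    (3 ≤ n ∧ ∃ x y z : G, closure ({x, y, z} : Set G) = ⊤ ∧ x ^ 3 = 1 ∧ y ^ 3 = 1 ∧ z ^ 3 ^ (n - 2) = 1 ∧
        x * z = z * x ∧ y * z = z * y ∧ x⁻¹ * y * x = y * z ^ 3 ^ (n - 3)) ∨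
    (4 ≤ n ∧ ∃ (s : ℕ) (x y z : G), (s = 1 ∨ ¬ IsSquare (s : ZMod 3)) ∧ closure ({x, y, z} : Set G) = ⊤ ∧
        x ^ 3 = 1 ∧ y ^ 3 = 1 ∧ z ^ 3 ^ (n - 2) = 1 ∧ y * z = z * y ∧ x⁻¹ * y * x = y * z ^ (s * 3 ^ (n - 3)) ∧
        x⁻¹ * z * x = y * z) ∨
    (2 ≤ n ∧ (⊤ : Subgroup G).lowerCentralSeries (n - 2) ≠ ⊥) := by
  have hG : IsPGroup 3 G := IsPGroup.of_card hn
  have hnc : ¬ IsCyclic ↥(⊤ : Subgroup G) := by
    intro h
    apply hnm
    apply isMetacyclic_of_isCyclic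
    exact isCyclic_of_surjective (Subgroup.topEquiv (G := G)).toMonoidHom (Subgroup.topEquiv (G := G)).surjective
  obtain ⟨V, -, hVn, hVe, hVc⟩ := exists_normal_rank_two (by norm_num) hG ⊤ hnc
  obtain ⟨hcomm, hexp⟩ := Cfsg.Agent.Lib.PGroup.Basic.isElementaryAbelian_iff.mp hVe
  set X := centralizer (V : Set G) with hX
  have hXn : X.Normal := by
    rw [hX]
    infer_instance
  have hXi : X.index ≤ 3 := index_centralizer_le_of_card_sq hG V hVc
  have hLX : PowerLaw 3 X := powerLaw_centralizer hG hr hVe hVc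
  have hΩ : ∀ x ∈ X, x ^ 3 = 1 → x ∈ V := fun x hx h3 => cube_root_mem hr hVe hVc hx h3
  have hVX : V ≤ X := le_centralizer_self hVe
  have hXne : X ≠ ⊤ := by
    intro h
    apply hnm
    refine metacyclic_of_central_omega _ G hG V ?_ ?_ ?_ rfl
    · intro v hv
      rw [mem_center_iff]
      intro g
      have hg : g ∈ X := by rw [h]; trivial
      exact (mem_centralizer_iff.mp hg v hv).symm
    · intro x
      refine ⟨fun h3 => hΩ x (by rw [h]; trivial) h3, hexp x⟩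
    · rw [hVc]
      norm_num
  have hXi3 : X.index = 3 := index_eq_three_of_le hG hXne hXi
  have hfinal : (∃ H : Subgroup G, Nat.card H = 3 ^ 4 ∧ H.lowerCentralSeries 2 ≠ ⊥) →
      (2 ≤ n ∧ (⊤ : Subgroup G).lowerCentralSeries (n - 2) ≠ ⊥) := by
    rintro ⟨H, hHc, hHne⟩
    refine ⟨?_, maxClass_of_subgroup _ G hG hr H 4 le_rfl hHc hHne n hn rfl⟩
    have h1 := Subgroup.card_le_card_group H
    rw [hHc, hn] at h1
    have h2 := (Nat.pow_le_pow_iff_right (by norm_num : 1 < 3)).mp h1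
    omega
  by_cases hI : ∃ x, x ∉ X ∧ x ^ 3 = 1
  · obtain ⟨x, hxX, hx3⟩ := hI
    set E := V ⊔ zpowers x with hE
    have hxV : x ∉ V := fun h => hxX (hVX h)
    have hEc : Nat.card E = 3 ^ 3 := by
      rw [hE, card_sup_zpowers V hxV (by rw [hx3]; exact one_mem _), hVc]
      norm_num
    have hEp : ∀ e ∈ E, e ^ 3 = 1 :=
      cube_one_of_sup hG (lcs_eq_bot_of_card_pow hG hEc (by norm_num)) rfl hexp hx3
    by_cases hI2 : ∀ g : G, g ^ 3 = 1 → g ∈ E
    · have hEmem : ∀ g, g ∈ E ↔ g ^ 3 = 1 := fun g => ⟨hEp g, hI2 g⟩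
      have hEn : E.Normal := by
        refine ⟨fun e he g => ?_⟩
        rw [hEmem] at he ⊢
        rw [conj_pow, he]
        simp
      have hEna : ¬ IsMulCommutative E := by
        intro hc
        have h1 := hr E hc hEp
        rw [hEc] at h1
        norm_num at h1
      obtain ⟨w, y, hwV, hyV, hwZ, hwo, hVeq, hyw, -, hyc⟩ := normal_card_sq_structure hG V hVc
      have hxy : x * y ≠ y * x := by
        intro h
        apply hxX
        rw [hX, mem_centralizer_iff]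
        intro v hv
        have hle : zpowers w ⊔ zpowers y ≤ centralizer ({x} : Set G) := by
          refine sup_le ?_ ?_
          · rw [zpowers_le, mem_centralizer_singleton_iff]
            exact (mem_center_iff.mp hwZ x).symm
          · rw [zpowers_le, mem_centralizer_singleton_iff]
            exact h.symm
        have hv' : v ∈ zpowers w ⊔ zpowers y := by rw [← hVeq]; exact hv
        have := hle hv'
        rw [mem_centralizer_singleton_iff] at this
        exact this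
      let D : Data G 3 := ⟨E, V, x, y, w, hEn, hEc, hEmem, hEna, hVn, hVc, le_sup_left, hwV, hyV, hwZ, hwo,
        hVeq, hyw, hyc, mem_sup_right (mem_zpowers x), hxy⟩
      rcases dichotomy_of_powerLaw D (by norm_num) hLX hG with hM | ⟨z, hzX, hzM, hC⟩
      · exact Or.inl (D.form_b hG (by norm_num) hM hn)
      · exact Or.inr (Or.inl (D.form_c hG hzX hzM hC hn))
    · push Not at hI2
      obtain ⟨g, hg3, hgE⟩ := hI2
      exact Or.inr (Or.inr (hfinal (exists_81 _ G hG hr E hEc hEp rfl g hg3 hgE)))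
  · push Not at hI
    refine Or.inr (Or.inr (hfinal (exists_81_of_no_outer_root hG hr hVe hVc hXne hI ?_)))
    set W := pw 3 (⊤ : Subgroup G) with hW
    have hWidx : ¬ W.index ≤ 3 ^ 2 := fun h => hnm (metacyclic_of_index_pw_le_three _ G hG h rfl)
    have hW27 : 27 ≤ W.index := by
      obtain ⟨j, hj⟩ := IsPGroup.iff_card.mp (hG.to_quotient W)
      have hj' : W.index = 3 ^ j := hj
      rw [hj'] at hWidx ⊢
      have hj3 : 3 ≤ j := by
        by_contra hlt
        apply hWidx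
        exact Nat.pow_le_pow_right (by norm_num) (by omega)
      calc 27 = 3 ^ 3 := by norm_num
        _ ≤ 3 ^ j := Nat.pow_le_pow_right (by norm_num) hj3
    have hcount := card_eq_card_pw_mul hG hLX hVX (fun x hx hx3 => hΩ x hx hx3) hexp
    rw [hVc] at hcount
    have h1 : pw 3 X ≤ W := pw_mono le_top
    symm
    apply Subgroup.eq_of_le_of_card_ge h1
    have h2 := W.card_mul_index
    have h3 := X.card_mul_index
    rw [hXi3, hcount] at h3
    have h4 : Nat.card W * 27 ≤ Nat.card (pw 3 X) * 27 := by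
      calc Nat.card W * 27 ≤ Nat.card W * W.index := Nat.mul_le_mul_left _ hW27
        _ = Nat.card G := h2
        _ = Nat.card (pw 3 X) * 3 ^ 2 * 3 := h3.symm
        _ = _ := by ring
    exact Nat.le_of_mul_le_mul_right h4 (by norm_num)

end caseTwo

end Cfsg.Agent.Lib.PGroup.RankTwoThree
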